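import Cfsg.Agent.H412.Tc.Defs
set_option linter.all false

-- part: H183/TcStepA
section
/-!
# S3621, lemma StepA (helper183)

The 3-closure of a solvable group with a nontrivial invariant equivalence relation.
-/

set_option autoImplicit false

namespace Cfsg.Agent.H183.TcStepA

open Equiv Cfsg.Agent.H412.Tc

universe u

theorem solvable_comap {A B : Type*} [Group A] [Group B] (f : A →* B) (hf : Function.Injective f) (G : Subgroup B)
    (hG : Group.IsSolvable G) : Group.IsSolvable (G.comap f) := by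
  refine Group.isSolvable_of_isSolvable_injective (f := f.subgroupComap G) ?_
  intro x y hxy
  apply Subtype.ext
  apply hf
  exact congrArg Subtype.val hxy

theorem solvable_of_range_ker {A B : Type*} [Group A] [Group B] (f : A →* B) (h1 : Group.IsSolvable f.range)
    (h2 : Group.IsSolvable f.ker) : Group.IsSolvable A := by
  refine (Group.isSolvable_iff_subgroup_quotient f.ker).2 ⟨h2, ?_⟩
  exact Group.isSolvable_of_isSolvable_injective (f := (QuotientGroup.quotientKerEquivRange f).toMonoidHom)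
    (QuotientGroup.quotientKerEquivRange f).injective

section

variable {Ω : Type u} (H : Subgroup (Perm Ω)) (s : Setoid Ω) (hiff : ∀ h ∈ H, ∀ a b, s a b ↔ s (h a) (h b))

/-- the action on the classes -/
def quo : H →* Perm (Quotient s) where
  toFun h := Quotient.congr h.1 (hiff h.1 h.2)
  map_one' := by
    ext q
    induction q using Quotient.inductionOn
    rfl
  map_mul' h k := by
    ext q
    induction q using Quotient.inductionOn
    rfl

theorem quo_mk (h : H) (a : Ω) : quo H s hiff h (Quotient.mk s a) = Quotient.mk s (h.1 a) := rfl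

/-- the stabiliser of the class of `c` -/
def stab (c : Ω) : Subgroup H where
  carrier := {h | s (h.1 c) c}
  mul_mem' := by
    intro h k hh hk
    have h1 : s (h.1 (k.1 c)) (h.1 c) := (hiff h.1 h.2 _ _).1 hk
    exact s.trans' h1 hh
  one_mem' := s.refl' c
  inv_mem' := by
    intro h hh
    have h1 : s (h.1⁻¹ (h.1 c)) (h.1⁻¹ c) := (hiff h.1⁻¹ (H.inv_mem h.2) _ _).1 hh
    have e : h.1⁻¹ (h.1 c) = c := h.1.symm_apply_apply c
    rw [e] at h1
    exact s.symm' h1

theorem mem_stab {c : Ω} {h : H} : h ∈ stab H s hiff c ↔ s (h.1 c) c := Iff.rfl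

/-- the action of the stabiliser on the class -/
def act (c : Ω) : stab H s hiff c →* Perm {x // s x c} where
  toFun h := Perm.subtypePerm h.1.1 (fun x => ⟨fun hx =>
      (hiff h.1.1 h.1.2 _ _).2 (s.trans' hx (s.symm' h.2)), fun hx => s.trans' ((hiff h.1.1 h.1.2 _ _).1 hx) h.2⟩)
  map_one' := by ext x; rfl
  map_mul' h k := by ext x; rfl

theorem act_apply (c : Ω) (h : stab H s hiff c) (x : {x // s x c}) : (act H s hiff c h x : Ω) = h.1.1 x := rfl

end

theorem StepA.main {Ω : Type u} [Finite Ω] (hI : IH.{u} (Nat.card Ω)) (G : Subgroup (Perm Ω))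
    (hG : Group.IsSolvable G) (s : Setoid Ω) (hs : ∀ g ∈ G, ∀ a b, s a b → s (g a) (g b))
    (h1 : ∃ a b, a ≠ b ∧ s a b) (h2 : ∃ a b, ¬ s a b) : Group.IsSolvable (cl G) := by
  have hcl : ∀ h ∈ cl G, ∀ a b, s a b → s (h a) (h b) := by
    intro h hh a b hab
    obtain ⟨g, hg, ha, hb, -⟩ := hh a b b
    rw [← ha, ← hb]; exact hs g hg a b hab
  have hiff : ∀ h ∈ cl G, ∀ a b, s a b ↔ s (h a) (h b) := by
    intro h hh a b
    refine ⟨hcl h hh a b, fun hab => ?_⟩
    have := hcl h⁻¹ ((cl G).inv_mem hh) _ _ hab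
    simpa using this
  refine solvable_of_range_ker (quo (cl G) s hiff) ?_ ?_
  · have hcard : Nat.card (Quotient s) < Nat.card Ω := by
      by_contra hle
      push Not at hle
      obtain ⟨a, b, hab, hsab⟩ := h1
      have hb := (Quotient.mk_surjective (s := s)).bijective_of_nat_card_le hle
      exact hab (hb.1 (Quotient.sound hsab))
    refine hI.act hcard (quo (cl G) s hiff) (G.comap (cl G).subtype) (solvable_comap _ (cl G).subtype_injective G hG) ?_
    intro h a b c
    induction a using Quotient.inductionOn with | _ a =>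
    induction b using Quotient.inductionOn with | _ b =>
    induction c using Quotient.inductionOn with | _ c =>
    obtain ⟨g, hg, ha, hb, hc⟩ := h.2 a b c
    refine ⟨⟨g, le_cl G hg⟩, hg, ?_, ?_, ?_⟩
    · rw [quo_mk, quo_mk, ← ha]
    · rw [quo_mk, quo_mk, ← hb]
    · rw [quo_mk, quo_mk, ← hc]
  · have hmem : ∀ c : Ω, (quo (cl G) s hiff).ker ≤ stab (cl G) s hiff c := by
      intro c n hn
      rw [MonoidHom.mem_ker] at hn
      have h3 : quo (cl G) s hiff n (Quotient.mk s c) = Quotient.mk s c := by rw [hn]; rfl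
      rw [quo_mk] at h3
      exact Quotient.exact h3
    have hact : ∀ c : Ω, Group.IsSolvable (act (cl G) s hiff c).range := by
      intro c
      have hcard : Nat.card {x // s x c} < Nat.card Ω := by
        obtain ⟨a, b, hab⟩ := h2
        by_cases hac : s a c
        · have hbc : ¬ s b c := fun h => hab (s.trans' hac (s.symm' h))
          exact Finite.card_subtype_lt hbc
        · exact Finite.card_subtype_lt hac
      refine hI.act hcard (act (cl G) s hiff c) (G.comap ((cl G).subtype.comp (stab (cl G) s hiff c).subtype))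
        (solvable_comap _ (fun x y h => Subtype.ext (Subtype.ext h)) G hG) ?_
      intro h a b d
      obtain ⟨g, hg, ha, hb, hd⟩ := h.1.2 a b d
      have hgs : s (g c) c := by
        have h3 : s (g a) (g c) := hs g hg a c a.2
        have h4 : s (h.1.1 a) c := (act (cl G) s hiff c h a).2
        rw [ha] at h3
        exact s.trans' (s.symm' h3) h4
      refine ⟨⟨⟨g, le_cl G hg⟩, hgs⟩, hg, Subtype.ext ?_, Subtype.ext ?_, Subtype.ext ?_⟩
      · rw [act_apply, act_apply]; exact ha
      · rw [act_apply, act_apply]; exact hb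
      · rw [act_apply, act_apply]; exact hd
    refine solvable_of_family (ι := Ω) (fun c => (act (cl G) s hiff c).comp (Subgroup.inclusion (hmem c))) ?_ ?_
    · intro c
      refine solvable_of_le ?_ (hact c)
      rintro _ ⟨n, rfl⟩
      exact ⟨_, rfl⟩
    · intro x hx
      apply Subtype.ext
      apply Subtype.ext
      ext c
      have h3 := congrArg (fun f : Perm {x // s x c} => ((f ⟨c, s.refl' c⟩ : {x // s x c}) : Ω)) (hx c)
      exact h3

end Cfsg.Agent.H183.TcStepA
end

-- part: H183/TcStepB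
section
/-!
# S3621, lemma StepB (helper183)

Reduction of the main theorem to irreducible affine groups.
-/

set_option autoImplicit false

namespace Cfsg.Agent.H183.TcStepB

open Equiv Cfsg.Agent.H412.Tc
open scoped commutatorElement

universe u

/-- the automorphism group of `N` acts on `Additive N` -/
def toGV (N : Type*) [CommGroup N] : MulAut N →* GV (Additive N) where
  toFun φ :=
    { val := (MonoidHom.toAdditive φ.toMonoidHom)
      inv := (MonoidHom.toAdditive φ.symm.toMonoidHom)
      val_inv := by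
        ext x
        exact φ.apply_symm_apply _
      inv_val := by
        ext x
        exact φ.symm_apply_apply _ }
  map_one' := by
    apply Units.ext
    ext x
    rfl
  map_mul' φ ψ := by
    apply Units.ext
    ext x
    rfl

theorem toGV_smul {N : Type*} [CommGroup N] (φ : MulAut N) (x : N) :
    toGV N φ • (Additive.ofMul x) = Additive.ofMul (φ x) := rfl

/-- small degrees -/
theorem solvable_small {Ω : Type*} [Finite Ω] (h : Nat.card Ω ≤ 2) (G : Subgroup (Perm Ω)) : Group.IsSolvable G := by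
  classical
  have h1 : Nat.card (Perm Ω) ≤ 2 := by
    rw [Nat.card_perm]
    exact (Nat.factorial_le h).trans (by norm_num)
  have h0 : 0 < Nat.card (Perm Ω) := Nat.card_pos
  have hc : IsCyclic (Perm Ω) := by
    rcases (by omega : Nat.card (Perm Ω) = 1 ∨ Nat.card (Perm Ω) = 2) with h2 | h2
    · have : Subsingleton (Perm Ω) := (Nat.card_eq_one_iff_unique.1 h2).1
      exact isCyclic_of_subsingleton
    · have : Fact (Nat.Prime 2) := ⟨Nat.prime_two⟩
      exact isCyclic_of_prime_card h2
  refine Group.isSolvable_of_comm ?_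
  intro a b
  apply Subtype.ext
  have := IsCyclic.commGroup (α := Perm Ω)
  obtain ⟨g, hg⟩ := hc.exists_generator
  obtain ⟨i, hi⟩ := Subgroup.mem_zpowers_iff.1 (hg a.1)
  obtain ⟨j, hj⟩ := Subgroup.mem_zpowers_iff.1 (hg b.1)
  show a.1 * b.1 = b.1 * a.1
  rw [← hi, ← hj, ← zpow_add, ← zpow_add, add_comm]

/-- a nontrivial solvable group has a nontrivial abelian normal subgroup -/
theorem exists_abelian {G : Type*} [Group G] (hG : Group.IsSolvable G) (hne : ∃ g : G, g ≠ 1) :
    ∃ N : Subgroup G, N.Normal ∧ N ≠ ⊥ ∧ ∀ a ∈ N, ∀ b ∈ N, a * b = b * a := by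
  classical
  have h1 : ∃ n, derivedSeries G n = ⊥ := hG.solvable
  set m := Nat.find h1 with hm
  have hm1 : derivedSeries G m = ⊥ := Nat.find_spec h1
  have hm0 : m ≠ 0 := by
    intro h0
    rw [h0, derivedSeries_zero] at hm1
    obtain ⟨g, hg⟩ := hne
    exact hg ((Subgroup.mem_bot).1 (hm1 ▸ Subgroup.mem_top g))
  obtain ⟨k, hk⟩ := Nat.exists_eq_succ_of_ne_zero hm0
  refine ⟨derivedSeries G k, inferInstance, ?_, ?_⟩
  · exact Nat.find_min h1 (m := k) (by rw [← hm]; omega)
  · intro a ha b hb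
    have h2 : ⁅a, b⁆ ∈ derivedSeries G (k + 1) := by
      rw [derivedSeries_succ]
      exact Subgroup.commutator_mem_commutator ha hb
    rw [show k + 1 = m from hk.symm, hm1, Subgroup.mem_bot] at h2
    exact commutatorElement_eq_one_iff_mul_comm.1 h2

/-- the orbit relation of a subgroup -/
def orb {Ω : Type*} (N : Subgroup (Perm Ω)) : Setoid Ω where
  r a b := ∃ n ∈ N, n a = b
  iseqv := ⟨fun a => ⟨1, N.one_mem, rfl⟩,
    fun {a b} ⟨n, hn, h⟩ => ⟨n⁻¹, N.inv_mem hn, by rw [← h]; exact n.symm_apply_apply a⟩,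
    fun {a b c} ⟨n, hn, h⟩ ⟨k, hk, h'⟩ => ⟨k * n, N.mul_mem hk hn, by rw [Perm.mul_apply, h, h']⟩⟩

theorem orb_inv {Ω : Type*} {G N : Subgroup (Perm Ω)} (hn : ∀ g ∈ G, ∀ n ∈ N, g * n * g⁻¹ ∈ N) :
    ∀ g ∈ G, ∀ a b, orb N a b → orb N (g a) (g b) := by
  rintro g hg a b ⟨n, hn', rfl⟩
  refine ⟨g * n * g⁻¹, hn g hg n hn', ?_⟩
  rw [Perm.mul_apply, Perm.mul_apply]
  congr 2
  exact g.symm_apply_apply a

theorem prim_case {Ω : Type u} [Finite Ω] (star : ∀ (V : Type u) [AddCommGroup V] [Finite V], 3 ≤ Nat.card V →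
      IH.{u} (Nat.card V) → ∀ A : Subgroup (GV V), Group.IsSolvable A → Irr A →
      Group.IsSolvable (cl (Aff A))) (hI : IH.{u} (Nat.card Ω)) (h3 : 3 ≤ Nat.card Ω)
    (G : Subgroup (Perm Ω)) (hG : Group.IsSolvable G)
    (hprim : ∀ s : Setoid Ω, (∀ g ∈ G, ∀ a b, s a b → s (g a) (g b)) → (∀ a b, s a b → a = b) ∨ ∀ a b, s a b) :
    Group.IsSolvable (cl G) := by
  classical
  -- two different points, three different points
  have : Nonempty Ω := (Nat.card_pos_iff.1 (by omega)).1
  obtain ⟨o⟩ : Nonempty Ω := inferInstance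
  obtain ⟨p, hp⟩ : ∃ p : Ω, p ≠ o := by
    by_contra h
    push Not at h
    have : Subsingleton Ω := ⟨fun a b => by rw [h a, h b]⟩
    have := Nat.card_unique (α := Ω)
    omega
  obtain ⟨q, hqo, hqp⟩ : ∃ q : Ω, q ≠ o ∧ q ≠ p := by
    by_contra h
    push Not at h
    have h1 : Nat.card Ω ≤ 2 := by
      have h2 : (Set.univ : Set Ω) ⊆ {o, p} := by
        intro x _
        by_cases hx : x = o
        · left; exact hx
        · right; exact h x hx
      have h4 := Set.ncard_le_ncard h2 (Set.toFinite _)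
      rw [Set.ncard_univ] at h4
      exact h4.trans (Set.ncard_insert_le _ _ |>.trans (by rw [Set.ncard_singleton]))
    omega
  -- `G` is not trivial
  have hne : ∃ g : G, g ≠ 1 := by
    by_contra h
    push Not at h
    have hG1 : ∀ g ∈ G, g = 1 := fun g hg => congrArg Subtype.val (h ⟨g, hg⟩)
    -- the relation with classes `{o, p}` and singletons
    let s : Setoid Ω :=
      { r := fun a b => a = b ∨ ((a = o ∨ a = p) ∧ (b = o ∨ b = p))
        iseqv := by
          refine ⟨fun a => Or.inl rfl, ?_, ?_⟩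
          · rintro a b (h | ⟨h, h'⟩)
            · exact Or.inl h.symm
            · exact Or.inr ⟨h', h⟩
          · rintro a b c (rfl | ⟨h, h'⟩) (rfl | ⟨h'', h'''⟩)
            · exact Or.inl rfl
            · exact Or.inr ⟨h'', h'''⟩
            · exact Or.inr ⟨h, h'⟩
            · exact Or.inr ⟨h, h'''⟩ }
    rcases hprim s (fun g hg a b hab => by rw [hG1 g hg]; exact hab) with h1 | h1
    · exact hp (h1 p o (Or.inr ⟨Or.inr rfl, Or.inl rfl⟩))
    · rcases h1 q o with h2 | ⟨h2 | h2, -⟩
      · exact hqo h2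
      · exact hqo h2
      · exact hqp h2
  obtain ⟨N, hN, hN1, hNc⟩ := exists_abelian hG hne
  let _ : CommGroup N := { (inferInstance : Group N) with mul_comm := fun a b => Subtype.ext (hNc a a.2 b b.2) }
  -- subgroups of `N` normalised by `G`
  have key : ∀ U : Subgroup N, (∀ (g : G), ∀ u ∈ U, MulAut.conjNormal g u ∈ U) →
      U = ⊥ ∨ ∀ a b : Ω, ∃ u ∈ U, ((u : G) : Perm Ω) a = b := by
    intro U hU
    let U' : Subgroup (Perm Ω) := (U.map N.subtype).map G.subtype
    have hU' : ∀ x, x ∈ U' ↔ ∃ u ∈ U, ((u : G) : Perm Ω) = x := by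
      intro x
      constructor
      · rintro ⟨_, ⟨u, hu, rfl⟩, rfl⟩
        exact ⟨u, hu, rfl⟩
      · rintro ⟨u, hu, rfl⟩
        exact ⟨_, ⟨u, hu, rfl⟩, rfl⟩
    have h1 : ∀ g ∈ G, ∀ n ∈ U', g * n * g⁻¹ ∈ U' := by
      intro g hg n hn
      obtain ⟨u, hu, rfl⟩ := (hU' n).1 hn
      refine (hU' _).2 ⟨MulAut.conjNormal (⟨g, hg⟩ : G) u, hU _ u hu, ?_⟩
      rw [MulAut.conjNormal_apply]
      rfl
    rcases hprim (orb U') (orb_inv h1) with h2 | h2
    · left
      rw [eq_bot_iff]
      intro u hu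
      rw [Subgroup.mem_bot]
      apply Subtype.ext
      apply Subtype.ext
      ext a
      have h4 := h2 a (((u : G) : Perm Ω) a) ⟨_, (hU' _).2 ⟨u, hu, rfl⟩, rfl⟩
      exact h4.symm
    · right
      intro a b
      obtain ⟨n, hn, hnab⟩ := h2 a b
      obtain ⟨u, hu, rfl⟩ := (hU' n).1 hn
      exact ⟨u, hu, hnab⟩
  have htr : ∀ a b : Ω, ∃ u : N, ((u : G) : Perm Ω) a = b := by
    intro a b
    rcases key ⊤ (fun _ _ _ => Subgroup.mem_top _) with h1 | h1
    · exfalso
      apply hN1
      rw [eq_bot_iff]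
      intro n hn
      have h2 : (⟨n, hn⟩ : N) ∈ (⊥ : Subgroup N) := h1 ▸ Subgroup.mem_top _
      rw [Subgroup.mem_bot] at h2
      exact (Subgroup.mem_bot).2 (congrArg Subtype.val h2)
    · obtain ⟨u, -, hu⟩ := h1 a b
      exact ⟨u, hu⟩
  -- `N` is regular
  have hreg : ∀ (u v : N) (a : Ω), ((u : G) : Perm Ω) a = ((v : G) : Perm Ω) a → u = v := by
    intro u v a h
    apply Subtype.ext
    apply Subtype.ext
    ext b
    obtain ⟨m, rfl⟩ := htr a b
    have h1 : ((u : G) : Perm Ω) * ((m : G) : Perm Ω) = ((m : G) : Perm Ω) * ((u : G) : Perm Ω) :=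
      congrArg Subtype.val (hNc u u.2 m m.2)
    have h2 : ((v : G) : Perm Ω) * ((m : G) : Perm Ω) = ((m : G) : Perm Ω) * ((v : G) : Perm Ω) :=
      congrArg Subtype.val (hNc v v.2 m m.2)
    rw [← Perm.mul_apply, ← Perm.mul_apply, h1, h2, Perm.mul_apply, Perm.mul_apply, h]
  let e : Additive N ≃ Ω := Equiv.ofBijective (fun x => (((Additive.toMul x : N) : G) : Perm Ω) o) (by
    constructor
    · intro x y hxy
      exact congrArg Additive.ofMul (hreg _ _ o hxy)
    · intro b
      obtain ⟨u, hu⟩ := htr o b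
      exact ⟨Additive.ofMul u, hu⟩)
  have he : ∀ u : N, e (Additive.ofMul u) = ((u : G) : Perm Ω) o := fun u => rfl
  have hfin : Finite (Additive N) := Finite.of_equiv _ e.symm
  have hcard : Nat.card (Additive N) = Nat.card Ω := Nat.card_congr e
  let κ : G →* GV (Additive N) := (toGV N).comp MulAut.conjNormal
  have hsol : Group.IsSolvable κ.range := Group.isSolvable_of_surjective (f := κ.rangeRestrict) κ.rangeRestrict_surjective
  have hirr : Irr κ.range := by
    intro U hU
    rcases key (AddSubgroup.toSubgroup' U) (fun g u hu => hU (κ g) ⟨g, rfl⟩ (Additive.ofMul u) hu) with h1 | h1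
    · left
      rw [eq_bot_iff]
      intro x hx
      have h2 : (Additive.toMul x) ∈ (⊥ : Subgroup N) := by rw [← h1]; exact hx
      rw [Subgroup.mem_bot] at h2
      exact (AddSubgroup.mem_bot).2 (congrArg Additive.ofMul h2)
    · right
      rw [eq_top_iff]
      intro x _
      obtain ⟨u, hu, hux⟩ := h1 o (e x)
      have h2 : u = Additive.toMul x := hreg _ _ o hux
      rw [h2] at hu
      exact hu
  have hs := star (Additive N) (by omega) (by rw [hcard]; exact hI) κ.range hsol hirr
  -- transport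
  have haff : ∀ g ∈ G, (e.symm.permCongrHom g : Perm (Additive N)) ∈ Aff κ.range := by
    intro g hg
    refine ⟨κ ⟨g, hg⟩, ⟨_, rfl⟩, e.symm (g o), fun x => ?_⟩
    have h1 : (e.symm.permCongrHom g : Perm (Additive N)) x = e.symm (g (e x)) := rfl
    rw [h1]
    apply e.injective
    rw [e.apply_symm_apply]
    obtain ⟨t, ht⟩ : ∃ t : N, Additive.ofMul t = e.symm (g o) := ⟨Additive.toMul (e.symm (g o)), rfl⟩
    have ht' : ((t : G) : Perm Ω) o = g o := by
      rw [← he t, ht, e.apply_symm_apply]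
    rw [← ht]
    have h2 : κ ⟨g, hg⟩ • x = Additive.ofMul (MulAut.conjNormal (⟨g, hg⟩ : G) (Additive.toMul x)) := rfl
    rw [h2, ← ofMul_mul, he]
    have h5 : (((MulAut.conjNormal (⟨g, hg⟩ : G) (Additive.toMul x) * t : N) : G) : Perm Ω) =
        g * (((Additive.toMul x : N) : G) : Perm Ω) * g⁻¹ * ((t : G) : Perm Ω) := by
      have h6 : ((MulAut.conjNormal (⟨g, hg⟩ : G) (Additive.toMul x) * t : N) : G) =
        (⟨g, hg⟩ : G) * ((Additive.toMul x : N) : G) * (⟨g, hg⟩ : G)⁻¹ * (t : G) := by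
        rw [Subgroup.coe_mul, MulAut.conjNormal_apply]
      rw [h6]; rfl
    rw [h5, Perm.mul_apply, ht', Perm.mul_apply, Perm.mul_apply]
    have h7 : g⁻¹ (g o) = o := g.symm_apply_apply o
    rw [h7]
    rfl
  have hmem : ∀ h ∈ cl G, (e.symm.permCongrHom h : Perm (Additive N)) ∈ cl (Aff κ.range) := by
    intro h hh a b c
    obtain ⟨g, hg, ha, hb, hc⟩ := hh (e a) (e b) (e c)
    refine ⟨_, haff g hg, ?_, ?_, ?_⟩
    · exact congrArg e.symm ha
    · exact congrArg e.symm hb
    · exact congrArg e.symm hc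
  let Φ : cl G →* cl (Aff κ.range) := ((e.symm.permCongrHom : Perm Ω ≃* Perm (Additive N)).toMonoidHom.comp
    (cl G).subtype).codRestrict _ (fun h => hmem h h.2)
  refine Group.isSolvable_of_isSolvable_injective (f := Φ) ?_
  intro a b hab
  apply Subtype.ext
  exact e.symm.permCongrHom.injective (congrArg Subtype.val hab)

theorem StepB.main (star : ∀ (V : Type u) [AddCommGroup V] [Finite V], 3 ≤ Nat.card V →
      IH.{u} (Nat.card V) → ∀ A : Subgroup (GV V), Group.IsSolvable A → Irr A →
      Group.IsSolvable (cl (Aff A))) {Ω : Type u} [Finite Ω]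
    (G : Subgroup (Perm Ω)) (hG : Group.IsSolvable G) : Group.IsSolvable (cl G) := by
  obtain ⟨n, hn⟩ : ∃ n, n = Nat.card Ω := ⟨_, rfl⟩
  induction n using Nat.strong_induction_on generalizing Ω with
  | _ n ih =>
    have hI : IH.{u} (Nat.card Ω) := by
      intro X _ hX G' hG'
      exact ih (Nat.card X) (by rw [hn]; exact hX) G' hG' rfl
    by_cases h2 : Nat.card Ω ≤ 2
    · exact solvable_small h2 _
    by_cases hprim : ∀ s : Setoid Ω, (∀ g ∈ G, ∀ a b, s a b → s (g a) (g b)) → (∀ a b, s a b → a = b) ∨ ∀ a b, s a b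
    · exact prim_case star hI (by omega) G hG hprim
    · push Not at hprim
      obtain ⟨s, hs, ⟨a, b, hab, hne⟩, h3⟩ := hprim
      exact TcStepA.StepA.main hI G hG s hs ⟨a, b, hne, hab⟩ h3

end Cfsg.Agent.H183.TcStepB
end

-- part: H618/TcStepC
section
/-!
# Step C of the three-closure theorem (helper618, for S3621)

A solvable group of affine maps permuting a family of orthogonal idempotents has solvable
3-closure (induction hypothesis for smaller degrees).
-/

set_option autoImplicit false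

namespace Cfsg.Agent.H618.TcStepC

open Equiv
open Cfsg.Agent.H412.Tc

universe u

section

variable {V : Type u} [AddCommGroup V] {ι : Type u} (ε : ι → AddMonoid.End V)

/-- the coordinates where `a` and `b` differ -/
def D (a b : V) : Set ι := {i | ε i a ≠ ε i b}

variable {ε}

theorem mem_D {a b : V} {i : ι} : i ∈ D ε a b ↔ ε i a ≠ ε i b := Iff.rfl

theorem D_comm (a b : V) : D ε a b = D ε b a := by
  ext i
  rw [mem_D, mem_D, ne_comm]

/-- the data of orthogonal idempotents -/
structure Sys (ε : ι → AddMonoid.End V) : Prop where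
  hid : ∀ i, ε i * ε i = ε i
  horth : ∀ i j, i ≠ j → ε i * ε j = 0
  hsum : ∀ v, (∀ i, ε i v = 0) → v = 0
  hne : ∀ i, ε i ≠ 0

theorem Sys.idem (S : Sys ε) (i : ι) (v : V) : ε i (ε i v) = ε i v :=
  DFunLike.congr_fun (S.hid i) v

theorem Sys.orth (S : Sys ε) {i j : ι} (h : i ≠ j) (v : V) : ε i (ε j v) = 0 :=
  DFunLike.congr_fun (S.horth i j h) v

theorem Sys.exists_s (S : Sys ε) (i : ι) : ∃ s : V, s ≠ 0 ∧ ε i s = s := by
  by_contra hcon
  push Not at hcon
  apply S.hne i
  ext v
  by_contra h1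
  exact hcon (ε i v) h1 (S.idem i v)

/-- a chosen nonzero vector in the range of `ε i` -/
noncomputable def Sys.s (S : Sys ε) (i : ι) : V := (S.exists_s i).choose

theorem Sys.s_ne (S : Sys ε) (i : ι) : S.s i ≠ 0 := (S.exists_s i).choose_spec.1

theorem Sys.s_self (S : Sys ε) (i : ι) : ε i (S.s i) = S.s i := (S.exists_s i).choose_spec.2

theorem Sys.s_other (S : Sys ε) {i j : ι} (h : i ≠ j) : ε i (S.s j) = 0 := by
  rw [← S.s_self j, S.orth h]

theorem Sys.s_inj (S : Sys ε) : Function.Injective S.s := by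
  intro i j h
  by_contra hij
  have h1 := S.s_other (i := i) (j := j) hij
  rw [← h, S.s_self] at h1
  exact S.s_ne i h1

theorem Sys.D_add (S : Sys ε) (a : V) {i : ι} : D ε a (a + S.s i) = {i} := by
  ext l
  rw [mem_D, Set.mem_singleton_iff, map_add]
  by_cases h : l = i
  · subst h
    simp [S.s_self, S.s_ne]
  · simp [S.s_other h, h]

/-- `π` describes the action of `h` on the index set -/
def Des (ε : ι → AddMonoid.End V) (h : Perm V) (i j : ι) : Prop :=
  ∀ a b, i ∈ D ε a b ↔ j ∈ D ε (h a) (h b)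

theorem Des.uniq (S : Sys ε) {h : Perm V} {i j j' : ι} (hs : ∀ a i, ∃ k, D ε (h a) (h (a + S.s i)) = {k})
    (h1 : Des ε h i j) (h2 : Des ε h i j') : j = j' := by
  obtain ⟨k, hk⟩ := hs 0 i
  have h3 : i ∈ D ε (0 : V) (0 + S.s i) := by rw [S.D_add]; exact rfl
  have h4 := (h1 _ _).1 h3
  have h5 := (h2 _ _).1 h3
  rw [hk] at h4 h5
  exact h4.trans h5.symm

theorem Des.mul {h k : Perm V} {i j l : ι} (h1 : Des ε k i j) (h2 : Des ε h j l) : Des ε (h * k) i l := by
  intro a b
  rw [h1, h2]
  rfl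

theorem Des.one (i : ι) : Des ε (1 : Perm V) i i := fun _ _ => Iff.rfl

theorem exists_des_aff {A : Subgroup (GV V)}
    (hperm : ∀ g ∈ A, ∀ i, ∃ j, (g : AddMonoid.End V) * ε i = ε j * g) {g : Perm V} (hg : g ∈ Aff A) (i : ι) :
    ∃ j, Des ε g i j := by
  obtain ⟨a, ha, t, hf⟩ := hg
  obtain ⟨j, hj⟩ := hperm a ha i
  refine ⟨j, fun x y => ?_⟩
  have h1 : ∀ z, ε j (g z) = a • ε i z + ε j t := by
    intro z
    rw [hf, map_add]
    congr 1
    exact (DFunLike.congr_fun hj z).symm
  rw [mem_D, mem_D, h1, h1]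
  constructor
  · intro h2 h3
    exact h2 (smul_left_cancel a (add_right_cancel h3))
  · intro h2 h3
    exact h2 (by rw [h3])

/-- elements of the affine group map singleton differences to singleton differences -/
theorem des_aff_inj (S : Sys ε) {g : Perm V} {i i' j : ι} (h1 : Des ε g i j) (h2 : Des ε g i' j) : i = i' := by
  have h3 : i ∈ D ε (0 : V) (0 + S.s i) := by rw [S.D_add]; exact rfl
  have h4 := (h2 _ _).2 ((h1 _ _).1 h3)
  rw [S.D_add] at h4
  exact h4.symm

theorem D_image [Finite ι] (S : Sys ε) {A : Subgroup (GV V)}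
    (hperm : ∀ g ∈ A, ∀ i, ∃ j, (g : AddMonoid.End V) * ε i = ε j * g) {g : Perm V} (hg : g ∈ Aff A) :
    ∃ π : Perm ι, ∀ i, Des ε g i (π i) := by
  choose f hf using fun i => exists_des_aff hperm hg i
  have hinj : Function.Injective f := fun i i' h => des_aff_inj S (hf i) (by rw [h]; exact hf i')
  exact ⟨Equiv.ofBijective f (Finite.injective_iff_bijective.1 hinj), hf⟩

theorem D_eq_singleton {g : Perm V} {π : Perm ι} (hπ : ∀ i, Des ε g i (π i)) {a b : V} {i : ι}
    (h : D ε a b = {i}) : D ε (g a) (g b) = {π i} := by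
  ext l
  have h1 := hπ (π.symm l) a b
  rw [Equiv.apply_symm_apply] at h1
  rw [← h1, h, Set.mem_singleton_iff, Set.mem_singleton_iff, Equiv.symm_apply_eq]

variable [Finite ι] (S : Sys ε) {A : Subgroup (GV V)}
    (hperm : ∀ g ∈ A, ∀ i, ∃ j, (g : AddMonoid.End V) * ε i = ε j * g)

include S hperm

theorem singleton_cl {h : Perm V} (hh : h ∈ cl (Aff A)) {a b : V} {i : ι} (hab : D ε a b = {i}) :
    ∃ k, D ε (h a) (h b) = {k} := by
  obtain ⟨g, hg, e1, e2, -⟩ := hh a b b
  obtain ⟨π, hπ⟩ := D_image S hperm hg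
  refine ⟨π i, ?_⟩
  rw [← e1, ← e2]
  exact D_eq_singleton hπ hab

/-- the local statement -/
theorem exists_local {h : Perm V} (hh : h ∈ cl (Aff A)) (a : V) (i : ι) :
    ∃ j, ∀ b, (i ∈ D ε a b ↔ j ∈ D ε (h a) (h b)) := by
  obtain ⟨j, hj⟩ := singleton_cl S hperm hh (S.D_add a (i := i))
  refine ⟨j, fun b => ?_⟩
  obtain ⟨g, hg, e1, e2, e3⟩ := hh a (a + S.s i) b
  obtain ⟨π, hπ⟩ := D_image S hperm hg
  have h1 := D_eq_singleton hπ (S.D_add a (i := i))
  rw [e1, e2, hj] at h1
  have h2 : j = π i := Set.singleton_eq_singleton_iff.1 h1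
  rw [h2, ← e1, ← e3]
  exact hπ i a b

theorem exists_des {h : Perm V} (hh : h ∈ cl (Aff A)) (i : ι) : ∃ j, Des ε h i j := by
  obtain ⟨j, hj⟩ := exists_local S hperm hh 0 i
  refine ⟨j, ?_⟩
  -- `key`: equal local indices when `i ∉ D a b`
  have key : ∀ a b : V, i ∉ D ε a b → ∀ j j', (∀ c, (i ∈ D ε a c ↔ j ∈ D ε (h a) (h c))) →
      (∀ c, (i ∈ D ε b c ↔ j' ∈ D ε (h b) (h c))) → j = j' := by
    intro a b hab j j' h1 h2
    obtain ⟨k, hk⟩ := singleton_cl S hperm hh (S.D_add b (i := i))
    have h3 : i ∈ D ε b (b + S.s i) := by rw [S.D_add]; exact rfl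
    have h4 : i ∈ D ε a (b + S.s i) := by
      rw [mem_D] at h3 ⊢
      rw [mem_D, not_not] at hab
      rwa [hab]
    have h5 := (h1 _).1 h4
    have h6 : j ∉ D ε (h a) (h b) := fun h7 => hab ((h1 _).2 h7)
    have h7 : j ∈ D ε (h b) (h (b + S.s i)) := by
      rw [mem_D, not_not] at h6
      rw [mem_D] at h5 ⊢
      rwa [← h6]
    have h8 := (h2 _).1 h3
    rw [hk] at h7 h8
    exact h7.trans h8.symm
  have key2 : ∀ a b : V, ∀ j j', (∀ c, (i ∈ D ε a c ↔ j ∈ D ε (h a) (h c))) →
      (∀ c, (i ∈ D ε b c ↔ j' ∈ D ε (h b) (h c))) → j = j' := by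
    intro a b j j' h1 h2
    by_cases hab : i ∈ D ε a b
    · set b' : V := b - ε i b + ε i a with hb'
      have e1 : ε i b' = ε i a := by
        rw [hb', map_add, map_sub, S.idem, S.idem, sub_self, zero_add]
      have e2 : ∀ l, l ≠ i → ε l b' = ε l b := by
        intro l hl
        rw [hb', map_add, map_sub, S.orth hl, S.orth hl, sub_zero, add_zero]
      have h3 : D ε b b' = {i} := by
        ext l
        rw [mem_D, Set.mem_singleton_iff]
        by_cases hl : l = i
        · subst hl
          rw [e1]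
          simp only [iff_true]
          exact fun h9 => hab h9.symm
        · rw [e2 l hl]
          simp [hl]
      obtain ⟨j'', h4⟩ := exists_local S hperm hh b' i
      have h5 : j = j'' := key a b' (by rw [mem_D, not_not, e1]) j j'' h1 h4
      obtain ⟨k, hk⟩ := singleton_cl S hperm hh h3
      have h6 : i ∈ D ε b b' := by rw [h3]; exact rfl
      have h7 := (h2 _).1 h6
      rw [D_comm] at h6
      have h8 := (h4 _).1 h6
      rw [D_comm, hk] at h8
      rw [hk] at h7
      rw [h5]
      exact h8.trans h7.symm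
    · exact key a b hab j j' h1 h2
  intro a b
  obtain ⟨j', hj'⟩ := exists_local S hperm hh a i
  rw [key2 0 a j j' hj hj']
  exact hj' b

theorem uniq_cl {h : Perm V} (hh : h ∈ cl (Aff A)) {i j j' : ι} (h1 : Des ε h i j) (h2 : Des ε h i j') :
    j = j' :=
  Des.uniq S (fun a _ => singleton_cl S hperm hh (S.D_add a)) h1 h2

/-- The action of the 3-closure on the index set. -/
theorem exists_sigma : ∃ σ : ↥(cl (Aff A)) →* Perm ι, ∀ (h : ↥(cl (Aff A))) (i : ι), Des ε (h : Perm V) i (σ h i) := by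
  choose f hf using fun (h : ↥(cl (Aff A))) (i : ι) => exists_des S hperm h.2 i
  let F : ↥(cl (Aff A)) →* Function.End ι :=
    { toFun := fun h => f h
      map_one' := by
        funext i
        exact uniq_cl S hperm (one_mem _) (hf 1 i) (Des.one i)
      map_mul' := by
        intro h k
        funext i
        exact uniq_cl S hperm (mul_mem h.2 k.2) (hf (h * k) i) ((hf k i).mul (hf h _)) }
  refine ⟨F.toHomPerm, fun h i => ?_⟩
  exact hf h i

end

/-- Agreement at three points determines the index. -/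
theorem agree {V : Type u} [AddCommGroup V] {ι : Type u} {ε : ι → AddMonoid.End V} {g h : Perm V}
    {πg πh : Perm ι} (hg : ∀ i, Des ε g i (πg i)) (hh : ∀ i, Des ε h i (πh i)) {a b c : V} (ha : g a = h a)
    (hb : g b = h b) (hc : g c = h c) {i : ι} (hi : D ε a b ∩ D ε a c = {i}) : πg i = πh i := by
  have h0 : i ∈ D ε a b ∩ D ε a c := by rw [hi]; exact rfl
  have h1 := (hh i _ _).1 h0.1
  have h2 := (hh i _ _).1 h0.2
  rw [← ha, ← hb] at h1
  rw [← ha, ← hc] at h2
  have h3 := hg (πg.symm (πh i)) a b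
  have h4 := hg (πg.symm (πh i)) a c
  rw [Equiv.apply_symm_apply] at h3 h4
  have h5 : πg.symm (πh i) ∈ D ε a b ∩ D ε a c := ⟨h3.2 h1, h4.2 h2⟩
  rw [hi, Set.mem_singleton_iff, Equiv.symm_apply_eq] at h5
  exact h5.symm

/-- **Step C.** -/
theorem StepC.main {V : Type u} [AddCommGroup V] [Finite V] (hI : IH.{u} (Nat.card V))
    (A : Subgroup (GV V)) (hA : Group.IsSolvable A) {ι : Type u} [Finite ι]
    (ε : ι → AddMonoid.End V) (hid : ∀ i, ε i * ε i = ε i)
    (horth : ∀ i j, i ≠ j → ε i * ε j = 0) (hsum : ∀ v, (∀ i, ε i v = 0) → v = 0)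
    (hne : ∀ i, ε i ≠ 0) (h2 : ∃ i j : ι, i ≠ j)
    (hperm : ∀ g ∈ A, ∀ i, ∃ j, (g : AddMonoid.End V) * ε i = ε j * g) :
    Group.IsSolvable (cl (Aff A)) := by
  classical
  have S : Sys ε := ⟨hid, horth, hsum, hne⟩
  let H : Subgroup (Perm V) := cl (Aff A)
  obtain ⟨σ, hσ⟩ : ∃ σ : H →* Perm ι, ∀ (h : H) (i : ι), Des ε (h : Perm V) i (σ h i) :=
    exists_sigma S hperm
  let G : Subgroup H := (Aff A).subgroupOf H
  have hGs : Group.IsSolvable G := by
    have h0 := solvable_Aff A hA
    exact Group.isSolvable_of_isSolvable_injective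
      (f := ((Subgroup.subgroupOfEquivOfLe (le_cl (Aff A)) : G ≃* Aff A).toMonoidHom))
      (Subgroup.subgroupOfEquivOfLe (le_cl (Aff A))).injective
  -- the set of indices is smaller
  have hcard : Nat.card ι < Nat.card V := by
    have := Fintype.ofFinite ι
    have := Fintype.ofFinite V
    rw [Nat.card_eq_fintype_card, Nat.card_eq_fintype_card]
    refine Fintype.card_lt_of_injective_of_notMem S.s S.s_inj (b := 0) ?_
    rintro ⟨i, hi⟩
    exact S.s_ne i hi
  have e0 : ∀ i, D ε (0 : V) (S.s i) = {i} := by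
    intro i
    have := S.D_add 0 (i := i)
    rwa [zero_add] at this
  have eD : ∀ i j, D ε (S.s i) (S.s j) ⊆ {i, j} := by
    intro i j l hl
    by_contra h
    simp only [Set.mem_insert_iff, Set.mem_singleton_iff, not_or] at h
    rw [mem_D, S.s_other h.1, S.s_other h.2] at hl
    exact hl rfl
  have eD1 : ∀ i j, i ≠ j → i ∈ D ε (S.s i) (S.s j) := by
    intro i j hij
    rw [mem_D, S.s_self, S.s_other hij]
    exact S.s_ne i
  have eI : ∀ i j l, i ≠ j → i ≠ l → j ≠ l → D ε (S.s i) (S.s j) ∩ D ε (S.s i) (S.s l) = {i} := by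
    intro i j l hij hil hjl
    apply Set.Subset.antisymm
    · rintro k ⟨hk1, hk2⟩
      have h3 := eD _ _ hk1
      have h4 := eD _ _ hk2
      simp only [Set.mem_insert_iff, Set.mem_singleton_iff] at h3 h4 ⊢
      rcases h3 with h3 | h3
      · exact h3
      · rcases h4 with h4 | h4
        · exact h4
        · exact absurd (h3.symm.trans h4) hjl
    · rintro k rfl
      exact ⟨eD1 _ _ hij, eD1 _ _ hil⟩
  -- solvability of the image of `σ`
  have hpair : ∀ h : H, ∀ i j : ι, ∃ g ∈ G, σ g i = σ h i ∧ σ g j = σ h j := by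
    intro h i j
    obtain ⟨g, hg, g1, g2, g3⟩ := h.2 0 (S.s i) (S.s j)
    refine ⟨⟨g, le_cl _ hg⟩, hg, ?_, ?_⟩
    · exact agree (hσ ⟨g, le_cl _ hg⟩) (hσ h) g1 g2 g2 (by rw [Set.inter_self]; exact e0 i)
    · exact agree (hσ ⟨g, le_cl _ hg⟩) (hσ h) g1 g3 g3 (by rw [Set.inter_self]; exact e0 j)
  have hσs : Group.IsSolvable σ.range := by
    refine hI.act hcard σ G hGs ?_
    intro h i j l
    by_cases hij : i = j
    · subst hij
      obtain ⟨g, hg, h3, h4⟩ := hpair h i l
      exact ⟨g, hg, h3, h3, h4⟩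
    by_cases hil : i = l
    · subst hil
      obtain ⟨g, hg, h3, h4⟩ := hpair h i j
      exact ⟨g, hg, h3, h4, h3⟩
    by_cases hjl : j = l
    · subst hjl
      obtain ⟨g, hg, h3, h4⟩ := hpair h i j
      exact ⟨g, hg, h3, h4, h4⟩
    obtain ⟨g, hg, g1, g2, g3⟩ := h.2 (S.s i) (S.s j) (S.s l)
    have hs := hσ ⟨g, le_cl _ hg⟩
    refine ⟨⟨g, le_cl _ hg⟩, hg, ?_, ?_, ?_⟩
    · exact agree hs (hσ h) g1 g2 g3 (eI _ _ _ hij hil hjl)
    · exact agree hs (hσ h) g2 g1 g3 (eI _ _ _ (Ne.symm hij) hjl hil)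
    · exact agree hs (hσ h) g3 g1 g2 (eI _ _ _ (Ne.symm hil) (Ne.symm hjl) hij)
  -- the stabilizers
  have hmain : ∀ i : ι, ∃ f : σ.ker →* Perm {x : V // ε i x = x}, Group.IsSolvable f.range ∧
      ∀ h x, ((f h x : {x : V // ε i x = x}) : V) = ε i ((h : H).1 x) := by
    intro i
    let Si : Subgroup H := (MulAction.stabilizer (Perm ι) i).comap σ
    have hSi : ∀ h : H, h ∈ Si ↔ σ h i = i := fun h => Iff.rfl
    have hproj : ∀ h : Si, ∀ y : V, ε i ((h : H).1 (ε i y)) = ε i ((h : H).1 y) := by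
      intro h y
      have h3 := (hσ (h : H) i (ε i y) y)
      rw [(hSi h).1 h.2, mem_D, mem_D, S.idem] at h3
      by_contra h4
      exact (h3.2 h4) rfl
    let F : Si →* Function.End {x : V // ε i x = x} :=
      { toFun := fun h x => ⟨ε i ((h : H).1 x), S.idem _ _⟩
        map_one' := by
          funext x
          exact Subtype.ext x.2
        map_mul' := by
          intro h k
          funext x
          apply Subtype.ext
          change ε i ((h : H).1 ((k : H).1 x)) = ε i ((h : H).1 (ε i ((k : H).1 x)))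
          rw [hproj] }
    let ρ : Si →* Perm {x : V // ε i x = x} := F.toHomPerm
    have hρ : ∀ h x, ((ρ h x : {x : V // ε i x = x}) : V) = ε i ((h : H).1 x) := fun h x => rfl
    have hXc : Nat.card {x : V // ε i x = x} < Nat.card V := by
      obtain ⟨j, hj⟩ : ∃ j, j ≠ i := by
        obtain ⟨a, b, hab⟩ := h2
        by_cases ha : a = i
        · exact ⟨b, fun hb => hab (ha.trans hb.symm)⟩
        · exact ⟨a, ha⟩
      refine Finite.card_subtype_lt (x := S.s j) ?_
      rw [S.s_other (Ne.symm hj)]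
      exact fun h3 => S.s_ne j h3.symm
    let Gi : Subgroup Si := G.subgroupOf Si
    have hGi : Group.IsSolvable Gi := by
      have h3 : Group.IsSolvable (G ⊓ Si : Subgroup H) := solvable_of_le inf_le_left hGs
      have h4 : Gi.map Si.subtype ≤ G ⊓ Si := by
        rintro _ ⟨x, hx, rfl⟩
        exact ⟨hx, x.2⟩
      have h5 := solvable_of_le h4 h3
      exact Group.isSolvable_of_isSolvable_injective
        (f := (Gi.equivMapOfInjective Si.subtype Si.subtype_injective).toMonoidHom)
        (Gi.equivMapOfInjective Si.subtype Si.subtype_injective).injective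
    have hDi : ∀ a b : {x : V // ε i x = x}, a ≠ b → D ε (a : V) b = {i} := by
      intro a b hab
      ext l
      rw [mem_D, Set.mem_singleton_iff]
      by_cases hl : l = i
      · subst hl
        rw [a.2, b.2]
        simp only [iff_true]
        exact fun h9 => hab (Subtype.ext h9)
      · rw [← a.2, ← b.2, S.orth hl, S.orth hl]
        simp [hl]
    -- agreement
    have hagr0 : ∀ h : Si, ∀ a b c : V, (∃ x y, x ∈ ({a, b, c} : Set V) ∧ y ∈ ({a, b, c} : Set V) ∧
        D ε x y = {i}) → ∃ g ∈ Gi, (g : H).1 a = (h : H).1 a ∧ (g : H).1 b = (h : H).1 b ∧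
          (g : H).1 c = (h : H).1 c := by
      intro h a b c hxy
      obtain ⟨x, y, hx, hy, hD⟩ := hxy
      obtain ⟨g, hg, g1, g2, g3⟩ := (h : H).2 a b c
      have hxe : ∀ z ∈ ({a, b, c} : Set V), g z = (h : H).1 z := by
        intro z hz
        simp only [Set.mem_insert_iff, Set.mem_singleton_iff] at hz
        rcases hz with rfl | rfl | rfl
        · exact g1
        · exact g2
        · exact g3
      have h6 : σ ⟨g, le_cl _ hg⟩ i = σ h i :=
        agree (hσ ⟨g, le_cl _ hg⟩) (hσ h) (hxe x hx) (hxe y hy) (hxe y hy)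
          (by rw [Set.inter_self]; exact hD)
      rw [(hSi h).1 h.2] at h6
      exact ⟨⟨⟨g, le_cl _ hg⟩, h6⟩, hg, g1, g2, g3⟩
    have hagr : ∀ h : Si, ∀ a b c : {x : V // ε i x = x}, ∃ g ∈ Gi, ρ g a = ρ h a ∧
        ρ g b = ρ h b ∧ ρ g c = ρ h c := by
      intro h a b c
      by_cases hab : a = b
      · subst hab
        by_cases hac : a = c
        · subst hac
          obtain ⟨g, hg, g1, g2, g3⟩ := hagr0 h a (a + S.s i) a ⟨a, a + S.s i, by simp, by simp, S.D_add _⟩
          refine ⟨g, hg, ?_, ?_, ?_⟩ <;>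
          · apply Subtype.ext
            rw [hρ, hρ, g1]
        · obtain ⟨g, hg, g1, g2, g3⟩ := hagr0 h a a c ⟨a, c, by simp, by simp, hDi a c hac⟩
          refine ⟨g, hg, ?_, ?_, ?_⟩
          · apply Subtype.ext
            rw [hρ, hρ, g1]
          · apply Subtype.ext
            rw [hρ, hρ, g1]
          · apply Subtype.ext
            rw [hρ, hρ, g3]
      · obtain ⟨g, hg, g1, g2, g3⟩ := hagr0 h a b c ⟨a, b, by simp, by simp, hDi a b hab⟩
        refine ⟨g, hg, ?_, ?_, ?_⟩
        · apply Subtype.ext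
          rw [hρ, hρ, g1]
        · apply Subtype.ext
          rw [hρ, hρ, g2]
        · apply Subtype.ext
          rw [hρ, hρ, g3]
    have hsol := hI.act hXc ρ Gi hGi hagr
    have hle : σ.ker ≤ Si := by
      intro h hh
      rw [hSi, MonoidHom.mem_ker.1 hh]
      rfl
    refine ⟨ρ.comp (Subgroup.inclusion hle), ?_, fun h x => rfl⟩
    refine solvable_of_le ?_ hsol
    rintro _ ⟨x, rfl⟩
    exact ⟨Subgroup.inclusion hle x, rfl⟩
  choose f hf1 hf2 using hmain
  have hker : Group.IsSolvable σ.ker := by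
    refine solvable_of_family f hf1 ?_
    intro x hx
    apply Subtype.ext
    apply Subtype.ext
    ext a
    change (x : H).1 a = a
    rw [← sub_eq_zero]
    apply hsum
    intro i
    rw [map_sub, sub_eq_zero]
    have h3 := hσ (x : H) i (ε i a) a
    have h4 : σ (x : H) = 1 := x.2
    rw [h4] at h3
    change i ∈ _ ↔ i ∈ _ at h3
    rw [mem_D, mem_D, S.idem] at h3
    have h5 : ε i ((x : H).1 (ε i a)) = ε i ((x : H).1 a) := by
      by_contra h6
      exact (h3.2 h6) rfl
    rw [← h5]
    have h6 := hf2 i x ⟨ε i a, S.idem i a⟩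
    rw [hx i] at h6
    exact h6.symm
  have hQ : Group.IsSolvable (H ⧸ σ.ker) :=
    Group.isSolvable_of_isSolvable_injective (f := (QuotientGroup.quotientKerEquivRange σ).toMonoidHom)
      (QuotientGroup.quotientKerEquivRange σ).injective
  exact (Group.isSolvable_iff_subgroup_quotient σ.ker).2 ⟨hker, hQ⟩

end Cfsg.Agent.H618.TcStepC
end

-- part: H734/TcDich
section
/-!
# S3621, lemma Dich: a commutative ring of endomorphisms normalized by `A` is a field,
or StepC applies
-/

set_option autoImplicit false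

namespace Cfsg.Agent.H734.TcDich

open Equiv Cfsg.Agent.H412.Tc

universe u

/-- The statement of StepC (proved in a file of helper618). -/
def StepCStmt : Prop :=
  ∀ {V : Type u} [AddCommGroup V] [Finite V] (_ : IH.{u} (Nat.card V))
    (A : Subgroup (GV V)) (_ : Group.IsSolvable A) {ι : Type u} [Finite ι]
    (ε : ι → AddMonoid.End V) (_ : ∀ i, ε i * ε i = ε i)
    (_ : ∀ i j, i ≠ j → ε i * ε j = 0) (_ : ∀ v, (∀ i, ε i v = 0) → v = 0)
    (_ : ∀ i, ε i ≠ 0) (_ : ∃ i j : ι, i ≠ j)
    (_ : ∀ g ∈ A, ∀ i, ∃ j, (g : AddMonoid.End V) * ε i = ε j * g),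
    Group.IsSolvable (cl (Aff A))

theorem finite_end (V : Type*) [AddCommGroup V] [Finite V] : Finite (AddMonoid.End V) :=
  DFunLike.finite _

/-- In a finite monoid some positive power of every element is idempotent. -/
theorem exists_pow_idem {M : Type*} [Monoid M] [Finite M] (r : M) :
    ∃ n : ℕ, 0 < n ∧ r ^ n * r ^ n = r ^ n := by
  obtain ⟨a, b, hab, h⟩ := Finite.exists_ne_map_eq_of_infinite (fun n : ℕ => r ^ (n + 1))
  wlog hlt : a < b generalizing a b
  · exact this b a hab.symm h.symm (by omega)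
  obtain ⟨k, rfl⟩ : ∃ k, b = a + k := ⟨b - a, by omega⟩
  have hk : 0 < k := by omega
  have h' : r ^ (a + 1) = r ^ (a + 1 + k) := by
    simpa [add_assoc, add_comm, add_left_comm] using h
  have h1 : ∀ m, r ^ (a + 1 + m) = r ^ (a + 1 + m + k) := by
    intro m
    rw [pow_add, h', ← pow_add]
    congr 1
    omega
  have h2 : ∀ m j, r ^ (a + 1 + m) = r ^ (a + 1 + m + j * k) := by
    intro m j
    induction j with
    | zero => simp
    | succ j ih =>
      rw [ih]
      have := h1 (m + j * k)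
      rw [← add_assoc] at this
      rw [this]
      congr 1
      ring
  have hge : a + 1 ≤ (a + 1) * k := Nat.le_mul_of_pos_right _ hk
  obtain ⟨m, hm⟩ : ∃ m, (a + 1) * k = a + 1 + m := ⟨(a + 1) * k - (a + 1), by omega⟩
  refine ⟨(a + 1) * k, by positivity, ?_⟩
  rw [← pow_add]
  have h3 := h2 m (a + 1)
  rw [← hm] at h3
  exact h3.symm

section

set_option linter.unusedSectionVars false

variable {V : Type u} [AddCommGroup V] [Finite V] {A : Subgroup (GV V)}
  {R : Subring (AddMonoid.End V)}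

/-- A nilpotent element of `R` is zero. -/
theorem reduced (hirr : Irr A) (hcomm : ∀ a ∈ R, ∀ b ∈ R, a * b = b * a)
    (hnorm : ∀ g ∈ A, ∀ r ∈ R,
      (g : AddMonoid.End V) * r * ((g⁻¹ : GV V) : AddMonoid.End V) ∈ R)
    (r : AddMonoid.End V) (hr : r ∈ R) (hn : IsNilpotent r) : r = 0 := by
  classical
  by_cases hV : Nontrivial V
  swap
  · rw [not_nontrivial_iff_subsingleton] at hV
    ext v
    exact Subsingleton.elim _ _
  -- the common kernel of the nilpotent elements
  let U : AddSubgroup V :=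
    { carrier := {v | ∀ s ∈ R, IsNilpotent s → s v = 0}
      add_mem' := by
        intro a b ha hb s hs hsn
        rw [map_add, ha s hs hsn, hb s hs hsn, add_zero]
      zero_mem' := fun s _ _ => map_zero s
      neg_mem' := by
        intro a ha s hs hsn
        rw [map_neg, ha s hs hsn, neg_zero] }
  have hUA : ∀ g ∈ A, ∀ u ∈ U, g • u ∈ U := by
    intro g hg u hu s hs hsn
    have h1 : ((g⁻¹ : GV V) : AddMonoid.End V) * s * (g : AddMonoid.End V) ∈ R := by
      have := hnorm g⁻¹ (A.inv_mem hg) s hs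
      rwa [inv_inv] at this
    have h2 : IsNilpotent (((g⁻¹ : GV V) : AddMonoid.End V) * s * (g : AddMonoid.End V)) := by
      obtain ⟨n, hn⟩ := hsn
      refine ⟨n, ?_⟩
      have h3 : ∀ m, (((g⁻¹ : GV V) : AddMonoid.End V) * s * (g : AddMonoid.End V)) ^ m =
          ((g⁻¹ : GV V) : AddMonoid.End V) * s ^ m * (g : AddMonoid.End V) := by
        intro m
        induction m with
        | zero => simp
        | succ m ih =>
          rw [pow_succ, ih, pow_succ]
          simp only [mul_assoc, Units.mul_inv_cancel_left]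
      rw [h3, hn, mul_zero, zero_mul]
    have h4 := hu _ h1 h2
    have h5 : (g : AddMonoid.End V) ((((g⁻¹ : GV V) : AddMonoid.End V) * s *
        (g : AddMonoid.End V)) u) = s (g • u) := by
      have : (g : AddMonoid.End V) * (((g⁻¹ : GV V) : AddMonoid.End V) * s *
        (g : AddMonoid.End V)) = s * (g : AddMonoid.End V) := by
        simp only [mul_assoc, Units.mul_inv_cancel_left]
      exact congrArg (fun f : AddMonoid.End V => f u) this
    rw [← h5, h4, map_zero]
  -- a minimal nonzero `R`-invariant subgroup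
  let P : AddSubgroup V → Prop := fun W => W ≠ ⊥ ∧ ∀ s ∈ R, ∀ w ∈ W, s w ∈ W
  have hP : ∃ W, P W := ⟨⊤, by
    refine ⟨?_, fun s _ w _ => AddSubgroup.mem_top _⟩
    intro h
    obtain ⟨v, hv⟩ := exists_ne (0 : V)
    apply hv
    have : v ∈ (⊤ : AddSubgroup V) := AddSubgroup.mem_top _
    rw [h] at this
    simpa using this⟩
  have hfin : Finite (AddSubgroup V) := inferInstance
  obtain ⟨W, hW⟩ : ∃ W, Minimal P W := by
    obtain ⟨W0, hW0⟩ := hP
    obtain ⟨W, -, hW⟩ := (Set.toFinite {W | P W}).exists_le_minimal hW0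
    exact ⟨W, hW⟩
  have hWU : W ≤ U := by
    intro w hw s hs hsn
    -- the kernel of `s` on `W`
    let K : AddSubgroup V :=
      { carrier := {x | x ∈ W ∧ s x = 0}
        add_mem' := by
          rintro a b ⟨ha, ha'⟩ ⟨hb, hb'⟩
          exact ⟨W.add_mem ha hb, by rw [map_add, ha', hb', add_zero]⟩
        zero_mem' := ⟨W.zero_mem, map_zero s⟩
        neg_mem' := by
          rintro a ⟨ha, ha'⟩
          exact ⟨W.neg_mem ha, by rw [map_neg, ha', neg_zero]⟩ }
    have hK : P K := by
      refine ⟨?_, ?_⟩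
      · obtain ⟨n, hn⟩ := hsn
        obtain ⟨w0, hw0, hw0'⟩ : ∃ w ∈ W, w ≠ 0 := by
          by_contra hcon
          push Not at hcon
          exact hW.prop.1 ((AddSubgroup.eq_bot_iff_forall _).2 hcon)
        have hex : ∃ m, (s ^ m) w0 = 0 := ⟨n, by rw [hn]; rfl⟩
        let m := Nat.find hex
        have hm : (s ^ m) w0 = 0 := Nat.find_spec hex
        have hm0 : m ≠ 0 := by
          intro h0
          rw [h0, pow_zero] at hm
          exact hw0' hm
        obtain ⟨l, hl⟩ : ∃ l, m = l + 1 := ⟨m - 1, by omega⟩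
        have hlne : (s ^ l) w0 ≠ 0 := fun h => by
          have := Nat.find_min' hex h
          change m ≤ l at this
          omega
        have hmem : ∀ j, (s ^ j) w0 ∈ W := by
          intro j
          induction j with
          | zero => simpa using hw0
          | succ j ih =>
            rw [pow_succ']
            exact hW.prop.2 s hs _ ih
        intro hbot
        have : (s ^ l) w0 ∈ K := by
          refine ⟨hmem l, ?_⟩
          rw [hl, pow_succ'] at hm
          exact hm
        rw [hbot] at this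
        exact hlne (by simpa using this)
      · rintro t ht w ⟨hw1, hw2⟩
        refine ⟨hW.prop.2 t ht w hw1, ?_⟩
        have : (s * t) w = (t * s) w := by rw [hcomm s hs t ht]
        change (s * t) w = 0
        rw [this]
        change t (s w) = 0
        rw [hw2, map_zero]
    have := hW.le_of_le hK (fun x hx => hx.1) hw
    exact this.2
  have hUtop : U = ⊤ := by
    rcases hirr U hUA with h | h
    · exfalso
      rw [h, le_bot_iff] at hWU
      exact hW.prop.1 hWU
    · exact h
  ext v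
  have : v ∈ U := by rw [hUtop]; exact AddSubgroup.mem_top _
  exact this r hr hn

/-- Minimal idempotents. -/
def MinIdem (R : Subring (AddMonoid.End V)) (e : AddMonoid.End V) : Prop :=
  e ∈ R ∧ e ≠ 0 ∧ e * e = e ∧ ∀ f ∈ R, f * f = f → f * e = 0 ∨ f * e = e

theorem MinIdem.orth (hcomm : ∀ a ∈ R, ∀ b ∈ R, a * b = b * a) {e f : AddMonoid.End V}
    (he : MinIdem R e) (hf : MinIdem R f) (hne : e ≠ f) : e * f = 0 := by
  rcases hf.2.2.2 e he.1 he.2.2.1 with h | h
  · exact h
  · rcases he.2.2.2 f hf.1 hf.2.2.1 with h' | h'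
    · rw [hcomm e he.1 f hf.1, h']
    · exact absurd (by rw [← h, hcomm e he.1 f hf.1, h']) hne

theorem exists_minIdem (hcomm : ∀ a ∈ R, ∀ b ∈ R, a * b = b * a) (v : V) (hv : v ≠ 0) :
    ∃ e, MinIdem R e ∧ e v ≠ 0 := by
  classical
  have hfe := finite_end V
  -- idempotents not killing `v`, ordered by the size of the range
  let S : Set (AddMonoid.End V) := {f | f ∈ R ∧ f * f = f ∧ f v ≠ 0}
  have hS : S.Nonempty := ⟨1, R.one_mem, one_mul _, hv⟩
  obtain ⟨e, heS, hmin⟩ :=
    Set.exists_min_image S (fun f => Nat.card f.range) (Set.toFinite _) hS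
  obtain ⟨heR, hee, hev⟩ := heS
  refine ⟨e, ⟨heR, fun h => hev (by rw [h]; rfl), hee, ?_⟩, hev⟩
  -- an idempotent below `e` not killing `v` is `e`
  have key : ∀ g ∈ R, g * g = g → (g * e) v ≠ 0 → g * e = e := by
    intro g hg hgg hgv
    have hge : g * e * (g * e) = g * e := by
      calc g * e * (g * e) = g * (e * g) * e := by simp only [mul_assoc]
        _ = g * (g * e) * e := by rw [hcomm e heR g hg]
        _ = (g * g) * (e * e) := by simp only [mul_assoc]
        _ = g * e := by rw [hgg, hee]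
    have h1 : g * e ∈ S := ⟨R.mul_mem hg heR, hge, hgv⟩
    have h2 := hmin _ h1
    have h3 : (g * e).range ≤ e.range := by
      rintro _ ⟨x, rfl⟩
      refine ⟨g x, ?_⟩
      have : (e * g) x = (g * e) x := by rw [hcomm e heR g hg]
      exact this
    have h4 : (g * e).range = e.range := by
      apply AddSubgroup.eq_of_le_of_card_ge h3
      exact h2
    ext x
    have h5 : e x ∈ (g * e).range := by
      rw [h4]
      exact ⟨x, rfl⟩
    obtain ⟨y, hy⟩ := h5
    have h6 : (g * e) x = g (e x) := rfl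
    rw [h6, ← hy]
    have h7 : g * (g * e) = g * e := by rw [← mul_assoc, hgg]
    exact congrArg (fun f : AddMonoid.End V => f y) h7
  intro g hg hgg
  by_cases h1 : (g * e) v = 0
  · left
    have hg' : (1 - g) ∈ R := R.sub_mem R.one_mem hg
    have hgg' : (1 - g) * (1 - g) = 1 - g := by
      rw [mul_sub, mul_one, sub_mul, one_mul, hgg, sub_self, sub_zero]
    have h2 : ((1 - g) * e) v ≠ 0 := by
      rw [sub_mul, one_mul]
      intro h
      apply hev
      have : e v - (g * e) v = 0 := h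
      rw [h1, sub_zero] at this
      exact this
    have h3 := key _ hg' hgg' h2
    rw [sub_mul, one_mul] at h3
    simpa using h3
  · right
    exact key g hg hgg h1

theorem MinIdem.conj (hnorm : ∀ g ∈ A, ∀ r ∈ R,
      (g : AddMonoid.End V) * r * ((g⁻¹ : GV V) : AddMonoid.End V) ∈ R)
    {e : AddMonoid.End V} (he : MinIdem R e) {g : GV V} (hg : g ∈ A) :
    MinIdem R ((g : AddMonoid.End V) * e * ((g⁻¹ : GV V) : AddMonoid.End V)) := by
  obtain ⟨h1, h2, h3, h4⟩ := he
  refine ⟨hnorm g hg e h1, ?_, ?_, ?_⟩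
  · intro h
    apply h2
    have h5 : ((g⁻¹ : GV V) : AddMonoid.End V) * ((g : AddMonoid.End V) * e *
        ((g⁻¹ : GV V) : AddMonoid.End V)) * (g : AddMonoid.End V) = e := by
      simp only [mul_assoc, Units.inv_mul, mul_one, Units.inv_mul_cancel_left]
    rw [← h5, h, mul_zero, zero_mul]
  · calc (g : AddMonoid.End V) * e * ((g⁻¹ : GV V) : AddMonoid.End V) *
          ((g : AddMonoid.End V) * e * ((g⁻¹ : GV V) : AddMonoid.End V))
        = (g : AddMonoid.End V) * (e * e) * ((g⁻¹ : GV V) : AddMonoid.End V) := by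
          simp only [mul_assoc, Units.inv_mul_cancel_left]
      _ = _ := by rw [h3]
  · intro f hf hff
    have hf1 : ((g⁻¹ : GV V) : AddMonoid.End V) * f * (g : AddMonoid.End V) ∈ R := by
      have := hnorm g⁻¹ (A.inv_mem hg) f hf
      rwa [inv_inv] at this
    have hf2 : ((g⁻¹ : GV V) : AddMonoid.End V) * f * (g : AddMonoid.End V) *
        (((g⁻¹ : GV V) : AddMonoid.End V) * f * (g : AddMonoid.End V)) =
        ((g⁻¹ : GV V) : AddMonoid.End V) * f * (g : AddMonoid.End V) := by
      calc _ = ((g⁻¹ : GV V) : AddMonoid.End V) * (f * f) * (g : AddMonoid.End V) := by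
            simp only [mul_assoc, Units.mul_inv_cancel_left]
        _ = _ := by rw [hff]
    have h5 : f * ((g : AddMonoid.End V) * e * ((g⁻¹ : GV V) : AddMonoid.End V)) =
        (g : AddMonoid.End V) * (((g⁻¹ : GV V) : AddMonoid.End V) * f *
          (g : AddMonoid.End V) * e) * ((g⁻¹ : GV V) : AddMonoid.End V) := by
      simp only [mul_assoc, Units.mul_inv_cancel_left]
    rcases h4 _ hf1 hf2 with h | h
    · left
      rw [h5, h, mul_zero, zero_mul]
    · right
      rw [h5, h]

end

theorem Dich.main' (hC : StepCStmt.{u}) {V : Type u} [AddCommGroup V] [Finite V]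
    (hI : IH.{u} (Nat.card V))
    (A : Subgroup (GV V)) (hA : Group.IsSolvable A) (hirr : Irr A)
    (R : Subring (AddMonoid.End V)) (hcomm : ∀ a ∈ R, ∀ b ∈ R, a * b = b * a)
    (hnorm : ∀ g ∈ A, ∀ r ∈ R,
      (g : AddMonoid.End V) * r * ((g⁻¹ : GV V) : AddMonoid.End V) ∈ R) :
    Group.IsSolvable (cl (Aff A)) ∨ ∀ r ∈ R, r ≠ 0 → ∃ s ∈ R, r * s = 1 := by
  classical
  have hfe := finite_end V
  by_cases h2 : ∃ i j : {e : AddMonoid.End V // MinIdem R e}, i ≠ j
  · left
    refine hC hI A hA (ι := {e : AddMonoid.End V // MinIdem R e}) (fun i => i.1)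
      (fun i => i.2.2.2.1) (fun i j hij => MinIdem.orth hcomm i.2 j.2 (fun h => hij (Subtype.ext h)))
      ?_ (fun i => i.2.2.1) h2 ?_
    · intro v hv
      by_contra hne
      obtain ⟨e, he, hev⟩ := exists_minIdem hcomm v hne
      exact hev (hv ⟨e, he⟩)
    · intro g hg i
      refine ⟨⟨_, MinIdem.conj hnorm i.2 hg⟩, ?_⟩
      simp only [mul_assoc, Units.inv_mul, mul_one]
  · right
    push Not at h2
    intro r hr hr0
    obtain ⟨n, hn, hnn⟩ := exists_pow_idem r
    have hrn : r ^ n ∈ R := R.pow_mem hr n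
    have hrn0 : r ^ n ≠ 0 := fun h => hr0 (reduced hirr hcomm hnorm r hr ⟨n, h⟩)
    have h1 : r ^ n = 1 := by
      by_contra hne
      obtain ⟨v, hv⟩ : ∃ v, (r ^ n) v ≠ 0 := by
        by_contra hcon
        push Not at hcon
        exact hrn0 (by ext v; exact hcon v)
      obtain ⟨w, hw⟩ : ∃ w, (1 - r ^ n) w ≠ 0 := by
        by_contra hcon
        push Not at hcon
        apply hne
        have : (1 : AddMonoid.End V) - r ^ n = 0 := by ext v; exact hcon v
        exact (sub_eq_zero.1 this).symm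
      obtain ⟨e, he, hev⟩ := exists_minIdem hcomm _ hv
      obtain ⟨f, hf, hfw⟩ := exists_minIdem hcomm _ hw
      have hef : e = f := congrArg Subtype.val (h2 ⟨e, he⟩ ⟨f, hf⟩)
      subst hef
      have h3 : e * r ^ n = r ^ n * e := hcomm e he.1 _ hrn
      rcases he.2.2.2 (r ^ n) hrn hnn with h4 | h4
      · apply hev
        have : (e * r ^ n) v = 0 := by rw [h3, h4]; rfl
        exact this
      · apply hfw
        have : (e * (1 - r ^ n)) w = 0 := by
          rw [mul_sub, mul_one, h3, h4, sub_self]; rfl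
        exact this
    refine ⟨r ^ (n - 1), R.pow_mem hr _, ?_⟩
    rw [← pow_succ', Nat.sub_add_cancel hn, h1]

theorem Dich.main {V : Type u} [AddCommGroup V] [Finite V] (hI : IH.{u} (Nat.card V))
    (A : Subgroup (GV V)) (hA : Group.IsSolvable A) (hirr : Irr A)
    (R : Subring (AddMonoid.End V)) (hcomm : ∀ a ∈ R, ∀ b ∈ R, a * b = b * a)
    (hnorm : ∀ g ∈ A, ∀ r ∈ R,
      (g : AddMonoid.End V) * r * ((g⁻¹ : GV V) : AddMonoid.End V) ∈ R) :
    Group.IsSolvable (cl (Aff A)) ∨ ∀ r ∈ R, r ≠ 0 → ∃ s ∈ R, r * s = 1 :=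
  Dich.main' (@Cfsg.Agent.H618.TcStepC.StepC.main) hI A hA hirr R hcomm hnorm

end Cfsg.Agent.H734.TcDich
end
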